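import Mathlib
import Cfsg.Agent.Coprime44.InvariantSylow

/-!
# Groups with a maximal subgroup which is a `p`-group

* `isSolvable_of_normal_coatom`: a normal solvable maximal subgroup forces solvability;
* `isPGroup_complement_of_coatom`: a normal `p'`-subgroup supplementing a maximal `p`-subgroup
  has prime power order (every invariant Sylow subgroup of it is the whole of it);
* `isSolvable_of_coatom_complement`: hence such a group is solvable.
-/

set_option autoImplicit false

namespace CfsgLib.MaxPGroup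

variable {G : Type*} [Group G] [Finite G]

omit [Finite G] in
theorem isSolvable_of_normal_coatom (M : Subgroup G) [M.Normal] (hM : IsCoatom M)
    [Group.IsSolvable M] : Group.IsSolvable G := by
  have hc : IsCyclic (G ⧸ M) := by
    obtain ⟨a, ha⟩ : ∃ a : G, a ∉ M := by
      by_contra hcon
      push Not at hcon
      exact hM.1 (eq_top_iff.mpr fun x _ => hcon x)
    refine ⟨⟨(a : G ⧸ M), fun y => ?_⟩⟩
    obtain ⟨y, rfl⟩ := QuotientGroup.mk'_surjective M y
    have htop : M ⊔ Subgroup.zpowers a = ⊤ :=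
      hM.2 _ (left_lt_sup.mpr fun hle => ha (hle (Subgroup.mem_zpowers a)))
    obtain ⟨m, hm, _, ⟨k, rfl⟩, hmk⟩ :=
      Subgroup.mem_sup_of_normal_left.mp (htop.ge (Subgroup.mem_top y))
    refine ⟨k, ?_⟩
    show (a : G ⧸ M) ^ k = QuotientGroup.mk' M y
    rw [← hmk, map_mul, show QuotientGroup.mk' M m = 1 from (QuotientGroup.eq_one_iff m).mpr hm,
      one_mul, map_zpow]
    rfl
  haveI : Group.IsSolvable (G ⧸ M) := by
    obtain ⟨g, hg⟩ := hc.exists_generator
    exact Group.isSolvable_of_comm fun x y => by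
      obtain ⟨i, rfl⟩ := hg x
      obtain ⟨j, rfl⟩ := hg y
      exact (Commute.zpow_zpow_self g i j).eq
  exact Group.isSolvable_of_ker_le_range M.subtype (QuotientGroup.mk' M)
    (by rw [QuotientGroup.ker_mk', Subgroup.range_subtype])

variable {p : ℕ} [Fact p.Prime]

/-- A normal `p'`-subgroup with a maximal `p`-subgroup above it acting on it has prime power
order. -/
theorem isPGroup_complement_of_coatom {P M : Subgroup G} [M.Normal] (hP : IsPGroup p P)
    (hPmax : IsCoatom P) (hM : ¬ p ∣ Nat.card M) (q : ℕ) [Fact q.Prime] (hq : q ∣ Nat.card M) :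
    IsPGroup q M := by
  have hnorm : P ≤ Subgroup.normalizer (M : Set G) := by
    rw [Subgroup.normalizer_eq_top]
    exact le_top
  obtain ⟨S, hS⟩ := CfsgLib.Coprime44.exists_invariant_sylow hP hM hnorm q
  set Q : Subgroup G := (S : Subgroup M).map M.subtype
  have hSne : (S : Subgroup M) ≠ ⊥ := S.ne_bot_of_dvd_card hq
  have hQM : Q ≤ M := Subgroup.map_subtype_le _
  have hQP : ¬ Q ≤ P := by
    intro hle
    obtain ⟨s, hs, hs1⟩ := (Subgroup.nontrivial_iff_exists_ne_one _).mp
      ((Subgroup.nontrivial_iff_ne_bot _).mpr hSne)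
    obtain ⟨k, hk⟩ := hP ⟨(s : G), hle (Subgroup.mem_map_of_mem M.subtype hs)⟩
    have hk' : orderOf (s : G) ∣ p ^ k :=
      orderOf_dvd_of_pow_eq_one (by simpa using congrArg Subtype.val hk)
    have hsM : orderOf (s : G) ∣ Nat.card M := by
      rw [Subgroup.orderOf_coe]
      exact orderOf_dvd_natCard s
    have h1 : orderOf (s : G) = 1 := by
      obtain ⟨i, _, hi⟩ := (Nat.dvd_prime_pow (Fact.out : p.Prime)).mp hk'
      rcases Nat.eq_zero_or_pos i with h0 | h0
      · rw [hi, h0, pow_zero]
      · exact absurd (((dvd_pow_self p h0.ne').trans hi.symm.dvd).trans hsM) hM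
    exact hs1 (Subtype.ext (orderOf_eq_one_iff.mp h1))
  have htop : Q ⊔ P = ⊤ := hPmax.2 _ (lt_of_le_of_ne le_sup_right fun h => hQP (h ▸ le_sup_left))
  intro m
  have hm : (m : G) ∈ Q := by
    have hmem : (m : G) ∈ ((P ⊔ Q : Subgroup G) : Set G) := by
      rw [sup_comm, htop]; trivial
    rw [Subgroup.coe_mul_of_left_le_normalizer_right P Q hS] at hmem
    obtain ⟨b, hb, a, ha, hab⟩ := hmem
    simp only at hab
    have hbM : b ∈ M := by
      rw [show b = (m : G) * a⁻¹ by rw [← hab, mul_inv_cancel_right]]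
      exact M.mul_mem m.2 (M.inv_mem (hQM ha))
    have hb1 : b = 1 := by
      obtain ⟨k, hk⟩ := hP ⟨b, hb⟩
      have hdvd : orderOf b ∣ p ^ k :=
        orderOf_dvd_of_pow_eq_one (by simpa using congrArg Subtype.val hk)
      have hbM' : orderOf b ∣ Nat.card M := by
        have := orderOf_dvd_natCard (⟨b, hbM⟩ : M)
        rwa [← Subgroup.orderOf_coe] at this
      exact orderOf_eq_one_iff.mp (Nat.dvd_one.mp
        ((((Fact.out : p.Prime).coprime_iff_not_dvd.mpr hM).pow_left k) ▸
          Nat.dvd_gcd hdvd hbM'))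
    rw [← hab, hb1, one_mul]
    exact ha
  obtain ⟨s, hs, hsm⟩ := hm
  obtain ⟨k, hk⟩ := S.isPGroup' ⟨s, hs⟩
  refine ⟨k, ?_⟩
  have hsm' : s = m := Subtype.ext hsm
  rw [← hsm']
  simpa using congrArg Subtype.val hk

/-- A group with a maximal `p`-subgroup and a normal `p`-complement is solvable. -/
theorem isSolvable_of_coatom_complement {P M : Subgroup G} [M.Normal] (hP : IsPGroup p P)
    (hPmax : IsCoatom P) (hM : ¬ p ∣ Nat.card M) (htop : M ⊔ P = ⊤) : Group.IsSolvable G := by
  haveI : Group.IsSolvable M := by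
    by_cases h1 : Nat.card M = 1
    · haveI : Subsingleton M := (Nat.card_eq_one_iff_unique.mp h1).1
      exact Group.isSolvable_of_comm fun x y => Subsingleton.elim _ _
    · obtain ⟨q, hq, hqM⟩ := Nat.exists_prime_and_dvd h1
      haveI := Fact.mk hq
      haveI := (isPGroup_complement_of_coatom hP hPmax hM q hqM).isNilpotent
      infer_instance
  haveI : Group.IsSolvable P := by
    haveI := hP.isNilpotent
    infer_instance
  haveI : Group.IsSolvable (G ⧸ M) := by
    refine Group.isSolvable_of_surjective (f := (QuotientGroup.mk' M).comp P.subtype) fun y => ?_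
    obtain ⟨y, rfl⟩ := QuotientGroup.mk'_surjective M y
    obtain ⟨m, hm, b, hb, hmb⟩ := Subgroup.mem_sup_of_normal_left.mp (htop.ge (Subgroup.mem_top y))
    refine ⟨⟨b, hb⟩, ?_⟩
    show QuotientGroup.mk' M b = QuotientGroup.mk' M y
    rw [← hmb, map_mul, show QuotientGroup.mk' M m = 1 from (QuotientGroup.eq_one_iff m).mpr hm,
      one_mul]
  exact Group.isSolvable_of_ker_le_range M.subtype (QuotientGroup.mk' M)
    (by rw [QuotientGroup.ker_mk', Subgroup.range_subtype])

end CfsgLib.MaxPGroup
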